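import Cfsg.Agent.Lib.Cores.Fitting
import Cfsg.Agent.Lib.Hall.Existence
import Cfsg.Agent.Lib.NormalPComplement.Quadratic
import Cfsg.Agent.Lib.NormalPComplement.Thompson
import Cfsg.Agent.Lib.ThompsonJ.Quadratic
import Cfsg.Prelude.Def_LocalEven

/-!
Solvable groups whose Hall `p'`-subgroups are abelian: structure modulo `O_p`, and `p`-stability.
-/

set_option autoImplicit false
set_option linter.style.haveILetI false
set_option linter.unusedSectionVars false

open scoped commutatorElement IsMulCommutative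
open Cfsg

namespace CfsgLib.Cores

variable {G : Type*} [Group G] [Finite G] {p : ℕ}

theorem coprime_card_of_isPiHall_compl [hp : Fact p.Prime] {A : Subgroup G}
    (hA : IsPiHall ({p}ᶜ : Set ℕ) A) : (Nat.card A).Coprime p :=
  (hp.out.coprime_iff_not_dvd.2 fun h => hA.1 p hp.out h rfl).symm

theorem exists_pow_card_of_isPiHall_compl [hp : Fact p.Prime] {A : Subgroup G}
    (hA : IsPiHall ({p}ᶜ : Set ℕ) A) : ∃ e : ℕ, A.index = p ^ e :=
  ⟨_, Nat.eq_prime_pow_of_unique_prime_dvd Subgroup.index_ne_zero_of_finite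
    fun {d} hd hdn => by_contra fun h => hA.2 d hd h hdn⟩

theorem eq_bot_of_isPGroup_of_coprime [hp : Fact p.Prime] {X : Subgroup G} (hX : IsPGroup p X)
    (hc : (Nat.card X).Coprime p) : X = ⊥ := by
  obtain ⟨k, hk⟩ := IsPGroup.iff_card.1 hX
  refine Subgroup.card_eq_one.1 ?_
  exact Nat.Coprime.eq_one_of_dvd (hc.pow_right k) (hk ▸ dvd_refl _)

theorem coprime_orderOf_of_mem {X : Subgroup G} (hX : (Nat.card X).Coprime p) {x : G} (hx : x ∈ X) :
    (orderOf x).Coprime p :=
  hX.coprime_dvd_left (Subgroup.orderOf_dvd_natCard X hx)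

theorem eq_one_of_isPGroup_of_coprime [hp : Fact p.Prime] {x : G} {k : ℕ} (hx : orderOf x ∣ p ^ k)
    (hc : (orderOf x).Coprime p) : x = 1 :=
  orderOf_eq_one_iff.1 (Nat.Coprime.eq_one_of_dvd (hc.pow_right k) hx)

/-- If `O_p(G) = 1` and a Hall `p'`-subgroup is abelian, it is normal and self-centralizing. -/
theorem abelianHall_normal [hp : Fact p.Prime] [Group.IsSolvable G] (hP : pCore p G = ⊥)
    {A : Subgroup G} (hA : IsPiHall ({p}ᶜ : Set ℕ) A) (hAc : IsMulCommutative A) :
    A.Normal ∧ Subgroup.centralizer (A : Set G) ≤ A := by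
  set F := pPrimeCore p G with hF
  have hFA : F ≤ A := by
    have hFpi : IsPiSubgroup ({p}ᶜ : Set ℕ) F := fun q hq hqd hqp => by
      rw [Set.mem_singleton_iff] at hqp
      subst hqp
      exact not_dvd_card_pPrimeCore hqd
    obtain ⟨g, hg⟩ := CfsgLib.Hall.exists_le_conj_isPiHall hA hFpi
    intro x hx
    have h1 := hg ((inferInstance : F.Normal).conj_mem x hx g)
    rw [CfsgLib.CoprimeAction.mem_conj_iff] at h1
    simpa [mul_assoc] using h1
  have hfit : fittingSubgroup G ≤ F := by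
    rw [fittingSubgroup_eq_iSup_pCore]
    refine iSup_le fun q => ?_
    by_cases hqp : (q : ℕ) = p
    · rw [hqp, hP]; exact bot_le
    have hqP : (q : ℕ).Prime := Nat.prime_of_mem_primeFactors q.2
    have := Fact.mk hqP
    refine le_pPrimeCore_of_not_dvd hp.out fun hd => hqp ?_
    obtain ⟨k, hk⟩ := IsPGroup.iff_card.1 (isPGroup_pCore (q : ℕ) G)
    rw [hk] at hd
    exact ((Nat.prime_dvd_prime_iff_eq hp.out hqP).1 (hp.out.dvd_of_dvd_pow hd)).symm
  have hCF : Subgroup.centralizer (F : Set G) ≤ F :=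
    ((Subgroup.centralizer_le (SetLike.coe_subset_coe.2 hfit)).trans
      centralizer_fittingSubgroup_le).trans hfit
  have hAF : A = F := by
    refine le_antisymm ?_ hFA
    intro a ha
    refine hCF (Subgroup.mem_centralizer_iff.2 fun f hf => ?_)
    exact congrArg Subtype.val (hAc.is_comm.comm (⟨f, hFA hf⟩ : A) ⟨a, ha⟩)
  exact hAF ▸ ⟨inferInstance, hCF⟩

section Quotient

variable [hp : Fact p.Prime] [Group.IsSolvable G] {A : Subgroup G}
  (hA : IsPiHall ({p}ᶜ : Set ℕ) A) (hAc : IsMulCommutative A)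

include hA hAc

theorem abelianHall_image :
    (A.map (QuotientGroup.mk' (pCore p G))).Normal ∧
      Subgroup.centralizer ((A.map (QuotientGroup.mk' (pCore p G)) : Subgroup (G ⧸ pCore p G)) :
        Set (G ⧸ pCore p G)) ≤ A.map (QuotientGroup.mk' (pCore p G)) := by
  have : Group.IsSolvable (G ⧸ pCore p G) :=
    Group.isSolvable_of_surjective (QuotientGroup.mk'_surjective (pCore p G))
  exact abelianHall_normal (pCore_quotient_pCore p G)
    (CfsgLib.Hall.isPiHall_map (QuotientGroup.mk'_surjective _) hA)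
    (Subgroup.map_isMulCommutative A _)

theorem abelianHall_sup_normal : (A ⊔ pCore p G).Normal := by
  have h := (abelianHall_image hA hAc).1.comap (QuotientGroup.mk' (pCore p G))
  rwa [Subgroup.comap_map_eq, QuotientGroup.ker_mk'] at h

/-- A `p`-subgroup normalised by the abelian Hall `p'`-subgroup lies in `O_p`. -/
theorem le_pCore_of_abelianHall {R : Subgroup G} (hR : IsPGroup p R)
    (hAR : A ≤ Subgroup.normalizer (R : Set G)) : R ≤ pCore p G := by
  set π := QuotientGroup.mk' (pCore p G) with hπ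
  obtain ⟨hn, hc⟩ := abelianHall_image hA hAc
  have hdisj : R.map π ⊓ A.map π = ⊥ :=
    eq_bot_of_isPGroup_of_coprime ((hR.map π).to_le inf_le_left)
      ((((coprime_card_of_isPiHall_compl hA).coprime_dvd_left (Subgroup.card_map_dvd A π)))
        |>.coprime_dvd_left (Subgroup.card_dvd_of_le inf_le_right))
  have hcomm : R.map π ≤ Subgroup.centralizer ((A.map π : Subgroup (G ⧸ pCore p G)) : Set _) := by
    rintro _ ⟨r, hr, rfl⟩
    refine Subgroup.mem_centralizer_iff.2 ?_
    rintro _ ⟨a, ha, rfl⟩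
    rw [← commutatorElement_eq_one_iff_mul_comm, ← Subgroup.mem_bot, ← hdisj]
    refine ⟨?_, ?_⟩
    · refine ⟨⁅a, r⁆, ?_, map_commutatorElement π a r⟩
      rw [commutatorElement_def]
      exact mul_mem ((Subgroup.mem_normalizer_iff.1 (hAR ha) r).1 hr) (inv_mem hr)
    · rw [SetLike.mem_coe, commutatorElement_def, mul_assoc (π a) (π r), mul_assoc (π a)]
      exact mul_mem ⟨a, ha, rfl⟩ (hn.conj_mem _ (inv_mem ⟨a, ha, rfl⟩) (π r))
  intro r hr
  have h1 : π r ∈ R.map π ⊓ A.map π := ⟨⟨r, hr, rfl⟩, hc (hcomm ⟨r, hr, rfl⟩)⟩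
  rw [hdisj, Subgroup.mem_bot] at h1
  exact (QuotientGroup.eq_one_iff r).1 h1

theorem pCore_sup_normalizer_eq_top : pCore p G ⊔ Subgroup.normalizer (A : Set G) = ⊤ := by
  have := abelianHall_sup_normal hA hAc
  have h := CfsgLib.Hall.sup_normalizer_eq_top (L := A ⊔ pCore p G) inferInstance (le_sup_left)
    (CfsgLib.Hall.isPiHall_subgroupOf hA le_sup_left)
  refine top_le_iff.1 (h.ge.trans (sup_le (sup_le ?_ le_sup_left) le_sup_right))
  exact (Subgroup.le_normalizer).trans le_sup_right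

end Quotient

/-- The core step of `p`-stability: quadratic elements lie in the normal subgroup `R`. -/
theorem mem_of_quadratic_of_abelianHall [hp : Fact p.Prime] (hp2 : p ≠ 2) [Group.IsSolvable G]
    {A : Subgroup G} (hA : IsPiHall ({p}ᶜ : Set ℕ) A) (hAc : IsMulCommutative A)
    {S R V : Subgroup G} [S.Normal] [R.Normal] [V.Normal] (hS : IsPGroup p S) (hVS : V ≤ S)
    (hSR : S ≤ R) (hCR : Subgroup.centralizer (V : Set G) ≤ R) (hRi : ¬ p ∣ S.relIndex R)
    (hcore : pCore p (G ⧸ R) = ⊥) {g : G} (hq : ∀ v ∈ V, ⁅⁅v, g⁆, g⁆ = 1) : g ∈ R := by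
  set π := QuotientGroup.mk' R with hπ
  set ψ := QuotientGroup.mk' S with hψ
  have : Group.IsSolvable (G ⧸ R) :=
    Group.isSolvable_of_surjective (QuotientGroup.mk'_surjective R)
  obtain ⟨hn, hcent⟩ := abelianHall_normal hcore
    (CfsgLib.Hall.isPiHall_map (QuotientGroup.mk'_surjective R) hA)
    (Subgroup.map_isMulCommutative A π)
  -- `R ≤ S A`
  have hRN : R ≤ S ⊔ A := by
    intro x hx
    obtain ⟨e, he⟩ := exists_pow_card_of_isPiHall_compl
      (CfsgLib.Hall.isPiHall_inf_subgroupOf (A := R) hA)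
    have hd : (S ⊔ A).relIndex R ∣ p ^ e := by
      rw [← he]
      exact Subgroup.relIndex_dvd_of_le_left R (inf_le_left.trans le_sup_right)
    have hd2 : (S ⊔ A).relIndex R ∣ S.relIndex R :=
      Subgroup.relIndex_dvd_of_le_left R le_sup_left
    have h1 : (S ⊔ A).relIndex R = 1 :=
      Nat.Coprime.eq_one_of_dvd (((hp.out.coprime_iff_not_dvd.2 hRi).symm.pow_right e)
        |>.coprime_dvd_left hd2) hd
    exact Subgroup.relIndex_eq_one.1 h1 hx
  -- the `p'`-parts of powers of `g` centralise `V`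
  have hw : ∀ w ∈ Subgroup.zpowers g, (orderOf w).Coprime p →
      w ∈ Subgroup.centralizer (V : Set G) := by
    intro w hwg hwc
    refine Subgroup.mem_centralizer_iff.2 fun v hv => ?_
    have hquad : ⁅⁅v, w⁆, w⁆ = 1 := by
      have hZ : ⁅⁅V, Subgroup.zpowers g⁆, Subgroup.zpowers g⁆ = ⊥ := by
        exact CfsgLib.ThompsonJ.quadratic_zpowers_iff.2 hq
      rw [← Subgroup.mem_bot, ← hZ]
      exact Subgroup.commutator_mem_commutator (Subgroup.commutator_mem_commutator hv hwg) hwg
    set y := w * v * w⁻¹ * v⁻¹ with hy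
    have hyV : y ∈ V := mul_mem (Subgroup.Normal.conj_mem inferInstance v hv w) (inv_mem hv)
    have hfix : w * y * w⁻¹ = y := by
      rw [commutatorElement_eq_one_iff_mul_comm] at hquad
      have h2 : y = (⁅v, w⁆)⁻¹ := by rw [hy, commutatorElement_def]; group
      rw [h2, mul_inv_eq_iff_eq_mul]
      exact (show Commute (⁅v, w⁆) w from hquad).inv_left.symm.eq
    have h1 := CfsgLib.NormalPComplement.conj_pow_right hfix
      (show w * v * w⁻¹ = y * v by rw [hy]; simp) (orderOf w)
    simp only [pow_orderOf_eq_one, one_mul, inv_one, mul_one, right_eq_mul] at h1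
    obtain ⟨n, hn⟩ := (hS.to_le hVS) ⟨y, hyV⟩
    have hy1 : y = 1 := orderOf_eq_one_iff.1 (Nat.eq_one_of_dvd_coprimes (hwc.pow_right n)
      (orderOf_dvd_of_pow_eq_one h1)
      (orderOf_dvd_of_pow_eq_one (congrArg Subtype.val hn)))
    rw [hy, mul_inv_eq_one, mul_inv_eq_iff_eq_mul] at hy1
    exact hy1.symm
  -- `g` centralises the image of `A` in `G / R`
  have hmemN : ∀ x k : G, k ∈ A → x * k * x⁻¹ ∈ S ⊔ A := by
    intro x k hk
    obtain ⟨a, ha, hae⟩ := hn.conj_mem _ (Subgroup.mem_map_of_mem π hk) (π x)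
    have h1 : a⁻¹ * (x * k * x⁻¹) ∈ R := by
      refine (QuotientGroup.eq_one_iff _).1 ?_
      show π (a⁻¹ * (x * k * x⁻¹)) = 1
      rw [map_mul, map_inv, map_mul, map_mul, map_inv, hae, inv_mul_cancel]
    have := mul_mem ((le_sup_right : A ≤ S ⊔ A) ha) (hRN h1)
    rwa [mul_inv_cancel_left] at this
  have hcommS : ∀ x k : G, k ∈ A → ⁅k, x * k * x⁻¹⁆ ∈ S := by
    intro x k hk
    refine (QuotientGroup.eq_one_iff _).1 ?_
    have h1 : ψ (x * k * x⁻¹) ∈ A.map ψ := by
      have := Subgroup.mem_map_of_mem ψ (hmemN x k hk)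
      rwa [Subgroup.map_sup, (Subgroup.map_eq_bot_iff _).2 (by rw [QuotientGroup.ker_mk']),
        bot_sup_eq] at this
    obtain ⟨a, ha, hae⟩ := h1
    show ψ ⁅k, x * k * x⁻¹⁆ = 1
    rw [map_commutatorElement, ← hae, ← map_commutatorElement,
      commutatorElement_eq_one_iff_mul_comm.2
        (congrArg Subtype.val (hAc.is_comm.comm (⟨k, hk⟩ : A) ⟨a, ha⟩)), map_one]
  have hgc : π g ∈ Subgroup.centralizer ((A.map π : Subgroup (G ⧸ R)) : Set (G ⧸ R)) := by
    refine Subgroup.mem_centralizer_iff.2 ?_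
    rintro _ ⟨k, hk, rfl⟩
    have hkc : (orderOf k).Coprime p :=
      coprime_orderOf_of_mem (coprime_card_of_isPiHall_compl hA) hk
    have hx : π ⁅g, k⁆ ∈ A.map π := by
      rw [map_commutatorElement, commutatorElement_def]
      exact mul_mem (hn.conj_mem _ ⟨k, hk, rfl⟩ (π g)) (inv_mem ⟨k, hk, rfl⟩)
    obtain ⟨e, he⟩ := CfsgLib.NormalPComplement.exists_pow_coprime_orderOf (p := p)
      (isOfFinOrder_of_finite ⁅g, k⁆)
    have hc := CfsgLib.NormalPComplement.mem_centralizer_of_quadratic (Q := S) (V := V) hS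
      ((Nat.coprime_primes Nat.prime_two hp.out).2 (Ne.symm hp2)) hVS hkc (hcommS g k hk)
      (by simpa using hcommS g⁻¹ k hk) hq (c := ⁅g, k⁆ ^ p ^ e)
      (pow_mem (Subgroup.mem_zpowers _) _) he
    have h1 : (π ⁅g, k⁆) ^ p ^ e = 1 := by
      rw [← map_pow]
      exact (QuotientGroup.eq_one_iff _).2 (hCR hc)
    have h2 : (orderOf (π ⁅g, k⁆)).Coprime p :=
      coprime_orderOf_of_mem
        ((coprime_card_of_isPiHall_compl hA).coprime_dvd_left (Subgroup.card_map_dvd A π)) hx
    have h3 := eq_one_of_isPGroup_of_coprime (orderOf_dvd_of_pow_eq_one h1) h2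
    rw [map_commutatorElement, commutatorElement_eq_one_iff_mul_comm] at h3
    exact h3.symm
  -- `π g` is at once a `p`-element and an element of the `p'`-group
  have hgA : π g ∈ A.map π := hcent hgc
  obtain ⟨e, he⟩ := CfsgLib.NormalPComplement.exists_pow_coprime_orderOf (p := p)
    (isOfFinOrder_of_finite g)
  have h1 : (π g) ^ p ^ e = 1 := by
    rw [← map_pow]
    exact (QuotientGroup.eq_one_iff _).2 (hCR (hw _ (pow_mem (Subgroup.mem_zpowers g) _) he))
  have h2 : (orderOf (π g)).Coprime p :=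
    coprime_orderOf_of_mem
      ((coprime_card_of_isPiHall_compl hA).coprime_dvd_left (Subgroup.card_map_dvd A π)) hgA
  exact (QuotientGroup.eq_one_iff g).1
    (eq_one_of_isPGroup_of_coprime (orderOf_dvd_of_pow_eq_one h1) h2)

/-- `p`-stability, `p` odd, of a solvable group acting on a normal `p`-subgroup when all its
`p'`-subgroups are abelian. -/
theorem mk_mem_pCore_of_quadratic_of_abelian [hp : Fact p.Prime] (hp2 : p ≠ 2)
    [Group.IsSolvable G] (hab : ∀ H : Subgroup G, (Nat.card H).Coprime p → IsMulCommutative H)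
    {V : Subgroup G} [V.Normal] (hV : IsPGroup p V) {g : G} (hq : ∀ v ∈ V, ⁅⁅v, g⁆, g⁆ = 1) :
    (QuotientGroup.mk' (Subgroup.centralizer (V : Set G)) g) ∈
      pCore p (G ⧸ Subgroup.centralizer (V : Set G)) := by
  set C := Subgroup.centralizer (V : Set G) with hC
  set φ := QuotientGroup.mk' C with hφ
  set T := pCore p (G ⧸ C) with hT
  set R := T.comap φ with hR
  have hCR : C ≤ R := fun x hx => by
    rw [hR, Subgroup.mem_comap, hφ, QuotientGroup.mk'_apply, (QuotientGroup.eq_one_iff x).2 hx]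
    exact one_mem _
  haveI hRn : R.Normal := (inferInstance : T.Normal).comap φ
  obtain ⟨S⟩ : Nonempty (Sylow p R) := inferInstance
  set S' := (S : Subgroup R).map R.subtype with hS'
  set K := Subgroup.normalizer (S' : Set G) with hK
  have htop : K ⊔ R = ⊤ := Sylow.normalizer_sup_eq_top S
  have hS'R : S' ≤ R := Subgroup.map_subtype_le _
  have hS'p : IsPGroup p S' := S.2.map _
  -- `R = C S'`
  have hRC : R ≤ C ⊔ S' := by
    intro x hx
    have h1 : ((C ⊔ S').relIndex R) ∣ (S' : Subgroup G).relIndex R :=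
      Subgroup.relIndex_dvd_of_le_left R le_sup_right
    have h2 : ¬ p ∣ S'.relIndex R := by
      have : S'.relIndex R = (S : Subgroup R).index := by
        rw [Subgroup.relIndex, Subgroup.subgroupOf, hS',
          Subgroup.comap_map_eq_self_of_injective R.subtype_injective]
      rw [this]; exact S.not_dvd_index
    have h3 : (C ⊔ S').relIndex R ∣ C.relIndex R := Subgroup.relIndex_dvd_of_le_left R le_sup_left
    have h4 : ∃ e, C.relIndex R = p ^ e := by
      obtain ⟨e, he⟩ := IsPGroup.iff_card.1 (isPGroup_pCore p (G ⧸ C))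
      refine ⟨e, ?_⟩
      rw [← he, hR, ← hT]
      have := Subgroup.relIndex_comap (⊥ : Subgroup (G ⧸ C)) φ (T.comap φ)
      rw [MonoidHom.comap_bot, QuotientGroup.ker_mk',
        Subgroup.map_comap_eq_self_of_surjective (QuotientGroup.mk'_surjective C),
        Subgroup.relIndex_bot_left] at this
      exact this
    obtain ⟨e, he⟩ := h4
    have h5 : (C ⊔ S').relIndex R = 1 :=
      Nat.Coprime.eq_one_of_dvd (((hp.out.coprime_iff_not_dvd.2 h2).symm.pow_right e)
        |>.coprime_dvd_left h1) (he ▸ h3)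
    exact Subgroup.relIndex_eq_one.1 h5 hx
  have hCK : ∀ x : G, ∃ c ∈ C, ∃ k ∈ K, x = c * k := by
    intro x
    have hx : x ∈ C ⊔ K := by
      have : (⊤ : Subgroup G) ≤ C ⊔ K :=
        htop.ge.trans (sup_le le_sup_right (hRC.trans (sup_le le_sup_left
          (Subgroup.le_normalizer.trans le_sup_right))))
      exact this trivial
    obtain ⟨c, hc, k, hk, rfl⟩ := Subgroup.mem_sup_of_normal_left.1 hx
    exact ⟨c, hc, k, hk, rfl⟩
  obtain ⟨c, hc, g₁, hg₁, rfl⟩ := hCK g
  have hVS : V ≤ S' := by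
    intro v hv
    have hvR : v ∈ R := by
      have h1 : IsPGroup p (V.map φ) := hV.map φ
      haveI := (inferInstance : V.Normal).map φ (QuotientGroup.mk'_surjective C)
      exact le_pCore h1 ⟨v, hv, rfl⟩
    exact ⟨⟨v, hvR⟩, IsPGroup.le_sylow_of_normal (N := V.subgroupOf R) hV.comap_subtype S hv, rfl⟩
  -- move to `K`
  haveI : Group.IsSolvable K := inferInstance
  obtain ⟨A, hA⟩ := CfsgLib.Hall.exists_isPiHall (G := K) ({p}ᶜ : Set ℕ)
  have hAc : IsMulCommutative A := by
    have := hab (A.map K.subtype) (by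
      rw [Subgroup.card_map_of_injective K.subtype_injective]
      exact coprime_card_of_isPiHall_compl hA)
    exact ⟨⟨fun a b => Subtype.ext (Subtype.ext (congrArg Subtype.val
      (this.is_comm.comm (⟨_, ⟨a, a.2, rfl⟩⟩ : A.map K.subtype) ⟨_, ⟨b, b.2, rfl⟩⟩) :))⟩⟩
  haveI : (S'.subgroupOf K).Normal := Subgroup.normal_in_normalizer
  haveI : (R.subgroupOf K).Normal := hRn.comap K.subtype
  haveI : (V.subgroupOf K).Normal := (inferInstance : V.Normal).comap K.subtype
  have hVK : V ≤ K := hVS.trans Subgroup.le_normalizer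
  have hcore : pCore p (K ⧸ R.subgroupOf K) = ⊥ := by
    let σ : K ⧸ R.subgroupOf K →* G ⧸ R :=
      QuotientGroup.map (R.subgroupOf K) R K.subtype le_rfl
    have hinj : Function.Injective σ := by
      rw [← MonoidHom.ker_eq_bot_iff]
      refine (QuotientGroup.ker_map _ _ _ _).trans ?_
      exact QuotientGroup.map_mk'_self _
    have hsurj : Function.Surjective σ := by
      intro y
      obtain ⟨x, rfl⟩ := QuotientGroup.mk_surjective y
      have hx : x ∈ K ⊔ R := htop ▸ Subgroup.mem_top x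
      obtain ⟨k, hk, r, hr, rfl⟩ := Subgroup.mem_sup_of_normal_right.1 hx
      refine ⟨QuotientGroup.mk ⟨k, hk⟩, ?_⟩
      show (QuotientGroup.mk k : G ⧸ R) = QuotientGroup.mk (k * r)
      rw [QuotientGroup.mk_mul, (QuotientGroup.eq_one_iff r).2 hr, mul_one]
    have hb : pCore p (G ⧸ R) = ⊥ := by
      rw [eq_bot_iff]
      intro y hy
      obtain ⟨x, rfl⟩ := QuotientGroup.mk'_surjective R y
      have h1 : ((pCore p (G ⧸ R)).comap (QuotientGroup.mk' R)).map φ ≤ T := by
        haveI : ((pCore p (G ⧸ R)).comap (QuotientGroup.mk' R)).Normal :=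
          (inferInstance : (pCore p (G ⧸ R)).Normal).comap _
        haveI := (inferInstance : ((pCore p (G ⧸ R)).comap (QuotientGroup.mk' R)).Normal).map φ
          (QuotientGroup.mk'_surjective C)
        refine le_pCore ?_
        rintro ⟨_, z, hz, rfl⟩
        obtain ⟨i, hi⟩ := isPGroup_pCore p (G ⧸ R) ⟨_, hz⟩
        have hzR : z ^ p ^ i ∈ R := (QuotientGroup.eq_one_iff _).1 (by
          simpa using congrArg Subtype.val hi)
        obtain ⟨j, hj⟩ := isPGroup_pCore p (G ⧸ C) ⟨_, hzR⟩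
        refine ⟨i + j, Subtype.ext ?_⟩
        show (φ z) ^ p ^ (i + j) = 1
        rw [pow_add, pow_mul, ← map_pow]
        exact congrArg Subtype.val hj
      rw [Subgroup.mem_bot]
      exact (QuotientGroup.eq_one_iff x).2 (Subgroup.mem_comap.2 (h1 ⟨x, hy, rfl⟩))
    refine (Subgroup.map_eq_bot_iff_of_injective _ hinj).1 (le_bot_iff.1 ?_)
    exact (map_pCore_le_of_surjective hsurj).trans hb.le
  have key := mem_of_quadratic_of_abelianHall hp2 hA hAc (S := S'.subgroupOf K)
    (R := R.subgroupOf K) (V := V.subgroupOf K) hS'p.comap_subtype (Subgroup.comap_mono hVS)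
    (Subgroup.comap_mono hS'R) (fun x hx => hCR (Subgroup.mem_centralizer_iff.2 fun v hv =>
      congrArg Subtype.val (Subgroup.mem_centralizer_iff.1 hx ⟨v, hVK hv⟩ hv)))
    (fun h => ?_) hcore (g := ⟨g₁, hg₁⟩) (fun v hv => Subtype.ext ?_)
  · show c * g₁ ∈ R
    exact mul_mem (hCR hc) key
  · refine S.not_dvd_index ?_
    have h1 : S'.relIndex R = (S : Subgroup R).index := by
      rw [Subgroup.relIndex, Subgroup.subgroupOf, hS',
        Subgroup.comap_map_eq_self_of_injective R.subtype_injective]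
    rw [← h1]
    rw [← Subgroup.inf_subgroupOf_right R K, Subgroup.relIndex_subgroupOf inf_le_right] at h
    exact h.trans (Dvd.intro _ (Subgroup.relIndex_mul_relIndex S' (R ⊓ K) R
      (le_inf hS'R Subgroup.le_normalizer) inf_le_left))
  · -- `g₁` acts on `V` as `c g₁` does
    show ⁅⁅(v : G), g₁⁆, g₁⁆ = 1
    have hcv : ∀ w ∈ V, c * w * c⁻¹ = w := fun w hw => by
      rw [← Subgroup.mem_centralizer_iff.1 hc w hw]; group
    have hconj : ∀ w ∈ V, (c * g₁) * w * (c * g₁)⁻¹ = g₁ * w * g₁⁻¹ := fun w hw => by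
      have := hcv _ ((inferInstance : V.Normal).conj_mem w hw g₁)
      calc (c * g₁) * w * (c * g₁)⁻¹ = c * (g₁ * w * g₁⁻¹) * c⁻¹ := by group
        _ = _ := this
    have hc1 : ∀ w ∈ V, ⁅w, c * g₁⁆ = ⁅w, g₁⁆ := fun w hw => by
      have := hconj w⁻¹ (inv_mem hw)
      calc ⁅w, c * g₁⁆ = w * ((c * g₁) * w⁻¹ * (c * g₁)⁻¹) := by
            rw [commutatorElement_def]; group
        _ = ⁅w, g₁⁆ := by rw [this, commutatorElement_def]; group
    have hmem : ⁅(v : G), g₁⁆ ∈ V := by
      rw [commutatorElement_def, mul_assoc (v : G), mul_assoc (v : G)]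
      exact mul_mem hv ((inferInstance : V.Normal).conj_mem _ (inv_mem hv) g₁)
    rw [← hc1 _ hmem, show ⁅(v : G), g₁⁆ = ⁅(v : G), c * g₁⁆ from (hc1 _ hv).symm]
    exact hq v hv

end CfsgLib.Cores
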